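import Mathlib

/-!
# S5719, sporadic rows: maximal subgroups of small index (helper768)

* `dvd_of_full` : `M` a maximal subgroup of `H` of index `k ≥ 3` such that the group induced on the cosets contains a
  Sylow `3`-subgroup of `S_k`: then it contains `A_k` (Jordan).
* `eq_top_of_small` : a perfect group `H` with a normal `2`-subgroup `Q`, `H/Q` simple of order `25920`, and no normal
  subgroups of `H` below `Q` of order between `3` and `|Q|`, has no proper subgroup of index at most `10`.
-/

set_option autoImplicit false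

namespace Cfsg.Agent.H768.IF5

open Subgroup MulAction Equiv

theorem toPermHom_range_prim {H : Type*} [Group H] [Finite H] {M : Subgroup H} (hM : IsCoatom M) :
    IsPreprimitive (MulAction.toPermHom H (H ⧸ M)).range (H ⧸ M) := by
  have hnt : Nontrivial (H ⧸ M) := by
    rw [← Finite.one_lt_card_iff_nontrivial]
    have h1 : M.index ≠ 1 := fun h => hM.1 (Subgroup.index_eq_one.1 h)
    have h2 : M.index ≠ 0 := Subgroup.index_ne_zero_of_finite
    show 1 < M.index
    omega
  have h1 : IsPreprimitive H (H ⧸ M) := by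
    rw [← isCoatom_stabilizer_iff_preprimitive H ((1 : H) : H ⧸ M), MulAction.stabilizer_quotient]
    exact hM
  let f : (H ⧸ M) →ₑ[(MulAction.toPermHom H (H ⧸ M)).rangeRestrict] (H ⧸ M) :=
    { toFun := fun x => x
      map_smul' := fun m x => rfl }
  exact IsPreprimitive.of_surjective (f := f) Function.surjective_id

theorem conj_three {α : Type*} [Fintype α] [DecidableEq α] {c : Perm α} (hc : c.IsThreeCycle) (g : Perm α) :
    (g * c * g⁻¹).IsThreeCycle := by
  rw [Perm.IsThreeCycle, Perm.cycleType_conj]
  exact hc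

theorem exists_three {α : Type*} [Fintype α] [DecidableEq α] (h : 3 ≤ Fintype.card α) :
    ∃ c : Perm α, c.IsThreeCycle := by
  obtain ⟨a, b, c, hab, hac, hbc⟩ := Fintype.two_lt_card_iff.1 (show 2 < Fintype.card α by omega)
  exact ⟨swap a b * swap a c, Perm.isThreeCycle_swap_mul_swap_same hab hac hbc⟩

/-- a subgroup containing a Sylow `3`-subgroup contains a `3`-cycle -/
theorem exists_three_mem {α : Type*} [Fintype α] [DecidableEq α] (h : 3 ≤ Fintype.card α) (R : Subgroup (Perm α))
    (hR : (Nat.card R).factorization 3 = (Fintype.card α).factorial.factorization 3) :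
    ∃ c ∈ R, c.IsThreeCycle := by
  classical
  obtain ⟨c, hc⟩ := exists_three h
  have hp : Fact (Nat.Prime 3) := ⟨Nat.prime_three⟩
  obtain ⟨P⟩ := (inferInstance : Nonempty (Sylow 3 R))
  have hPc : Nat.card ((P : Subgroup R).map R.subtype) = 3 ^ (Nat.card (Perm α)).factorization 3 := by
    rw [Nat.card_congr ((P : Subgroup R).equivMapOfInjective _ R.subtype_injective).symm.toEquiv, P.card_eq_multiplicity, hR,
      Nat.card_perm, Nat.card_eq_fintype_card]
  let P' : Sylow 3 (Perm α) := Sylow.ofCard _ hPc
  have hc3 : IsPGroup 3 (zpowers c) := by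
    rw [IsPGroup.iff_card]
    exact ⟨1, by rw [Nat.card_zpowers, hc.orderOf, pow_one]⟩
  obtain ⟨Q, hQ⟩ := hc3.exists_le_sylow
  obtain ⟨g, hg⟩ := MulAction.exists_smul_eq (Perm α) Q P'
  have h1 : g * c * g⁻¹ ∈ (P' : Subgroup (Perm α)) := by
    rw [← hg]
    have : c ∈ (Q : Subgroup (Perm α)) := hQ (mem_zpowers c)
    show g * c * g⁻¹ ∈ ((MulAut.conj g • Q : Sylow 3 (Perm α)) : Subgroup (Perm α))
    exact ⟨c, this, rfl⟩
  have h2 : (P' : Subgroup (Perm α)) ≤ R := by
    show ((P : Subgroup R).map R.subtype) ≤ R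
    exact Subgroup.map_subtype_le _
  exact ⟨_, h2 h1, conj_three hc g⟩

theorem dvd_of_full {H : Type*} [Group H] [Finite H] {M : Subgroup H} (hM : IsCoatom M) (h3 : 3 ≤ M.index)
    (hS : (Nat.card (MulAction.toPermHom H (H ⧸ M)).range).factorization 3 = M.index.factorial.factorization 3) :
    M.index.factorial ∣ 2 * Nat.card (MulAction.toPermHom H (H ⧸ M)).range := by
  classical
  have hf : Fintype (H ⧸ M) := Fintype.ofFinite _
  have hcard : Fintype.card (H ⧸ M) = M.index := by
    rw [← Nat.card_eq_fintype_card]; rfl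
  obtain ⟨c, hcR, hc⟩ := exists_three_mem (α := H ⧸ M) (by rw [hcard]; exact h3) _ (by rw [hcard]; exact hS)
  have hprim := toPermHom_range_prim hM
  have h1 := Perm.alternatingGroup_le_of_isPreprimitive_of_isThreeCycle_mem hprim hc hcR
  have h2 := Subgroup.card_dvd_of_le h1
  have hnt : Nontrivial (H ⧸ M) := by
    rw [← Fintype.one_lt_card_iff_nontrivial, hcard]; omega
  have h4 : 2 * Nat.card (alternatingGroup (H ⧸ M)) = M.index.factorial := by
    rw [Nat.card_eq_fintype_card, two_mul_card_alternatingGroup, Fintype.card_perm, hcard]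
  rw [← h4]
  exact Nat.mul_dvd_mul_left 2 h2

end Cfsg.Agent.H768.IF5
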