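import Cfsg.Agent.H768.IF.SuzIdx
import Cfsg.Agent.H209.IF.Kill
import Cfsg.Agent.H677.IF.Kill
import Cfsg.Agent.H999.IF.EngB
import Cfsg.Agent.KFacts.SuzFix
import Cfsg.Agent.KFacts.SuzTL
import Cfsg.Agent.CTwoTab.Suz

/-!
# S5719, row `Suz` (helper768)

* `A` contains a `2A`-involution `t`: `|C(t) : C_A(t)| ≤ 10` (E2'), hence `C(t) ≤ A` (no subgroups of small index); the
  `2A`-involutions being connected by commuting, `A = T`.
* `A` contains a `2B`-involution: `|TL : TL ∩ A| ≤ 19 < 64` for a Sylow `2`-subgroup `TL` of `L₃(4)`, whose involutions are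
  of class `2A`.
* `|A|` odd: `|C_T(σ)|_2 ≥ 128`, `128^6 > |Suz|`.
-/

set_option autoImplicit false
set_option maxRecDepth 100000

namespace Cfsg.Agent.H768.IF5.SuzR5

open Subgroup Cfsg.Spor Cfsg.Agent.H209.Fxy Cfsg.Agent.SuzThree.CentA Cfsg.Agent.SuzThree.Basic
  Cfsg.Agent.SuzThree.QZero Cfsg.Agent.KFacts Cfsg.Agent.SporadicRecognition.SuzPhi
  Cfsg.Agent.SporadicRecognition.SuzOrder Cfsg.Agent.Lib.PermNetOrbit

/-! ### Generalities -/

theorem exists_two {G : Type*} [Group G] [Finite G] {A B : Subgroup G} (hB : IsPGroup 2 B) (hne : A ⊓ B ≠ ⊥) :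
    ∃ x ∈ A, x ∈ B ∧ orderOf x = 2 := by
  have hnt : Nontrivial (A ⊓ B : Subgroup G) := (Subgroup.nontrivial_iff_ne_bot _).2 hne
  have hp : Fact (Nat.Prime 2) := ⟨Nat.prime_two⟩
  have h1 : IsPGroup 2 (A ⊓ B : Subgroup G) := hB.to_le inf_le_right
  obtain ⟨n, hn0, hn⟩ := (h1.nontrivial_iff_card).1 hnt
  obtain ⟨x, hx⟩ := exists_prime_orderOf_dvd_card' (G := (A ⊓ B : Subgroup G)) 2 (by
    rw [hn]; exact dvd_pow_self 2 (by omega))
  exact ⟨x, x.2.1, x.2.2, by rw [Subgroup.orderOf_coe]; exact hx⟩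

theorem relIndex_eq {G : Type*} [Group G] [Finite G] {A B : Subgroup G} (h : A ⊓ B = ⊥) :
    A.relIndex B = Nat.card B := by
  rw [← Subgroup.inf_relIndex_right, h, Subgroup.relIndex_bot_left]

/-- a `2`-group of fixed points of an involution of `Γ`, `A` of odd order -/
theorem odd_kill {T : Type*} [Group T] [Finite T] {A : Subgroup T} {Γ : Subgroup (MulAut T)} (h : IF A Γ)
    (hodd : ∀ t ∈ A, orderOf t ≠ 2) {σ : MulAut T} (hσ : σ ∈ Γ) (h2 : orderOf σ = 2) {B : Subgroup T}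
    (hB2 : IsPGroup 2 B) (hB : ∀ b ∈ B, σ b = b) (hbig : Nat.card T ≤ Nat.card B ^ 6) : False := by
  have h1 : A ⊓ B = ⊥ := by
    by_contra hne
    obtain ⟨x, hxA, -, hx⟩ := exists_two hB2 hne
    exact hodd x hxA hx
  have h3 := (Cfsg.Agent.H999.IFB.IF.E1 h hσ h2 hB).2
  rw [relIndex_eq h1] at h3
  have h4 : A.index ≤ Nat.card T := Nat.le_of_dvd Nat.card_pos A.index_dvd_card
  omega

/-- conjugating the subgroup -/
theorem IF.conjg {T : Type*} [Group T] {A : Subgroup T} {Γ : Subgroup (MulAut T)} (h : IF A Γ) (g : T) :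
    ∃ (A' : Subgroup T) (Γ' : Subgroup (MulAut T)), IF A' Γ' ∧ ∀ y, y ∈ A' ↔ g * y * g⁻¹ ∈ A := by
  refine ⟨_, _, h.map (MulAut.conj g⁻¹), fun y => ?_⟩
  rw [mem_map_e]
  have : (MulAut.conj g⁻¹).symm y = g * y * g⁻¹ := by
    rw [MulAut.conj_symm_apply, inv_inv]
  rw [this]

/-! ### The class `2A` -/

variable {A : Subgroup Suz} {Γ : Subgroup (MulAut Suz)}

theorem z0_sq : z0 * z0 = 1 := SuzLarge.large.z_sq

theorem ord_z0 : orderOf z0 = 2 :=
  orderOf_eq_prime (by rw [pow_two]; exact z0_sq) SuzLarge.large.z_ne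

theorem ord_e0 : orderOf SuzLFour.e0 = 2 :=
  orderOf_eq_prime (by rw [pow_two]; exact SuzLFour.e0_sq) SuzLFour.e0_ne

theorem hna : ∃ a b : Suz, a * b ≠ b * a := by
  refine ⟨SuzOut.n0, z0, fun h => SuzOut.n0_ne ?_⟩
  rw [h, mul_inv_cancel_right]

/-- `C(z0) ≤ A` -/
theorem cent_le [IsSimpleGroup Suz] (h : IF A Γ) (hz : z0 ∈ A) : C1 ≤ A := by
  have := SuzI.finSuz
  obtain ⟨-, -, -, -, h5⟩ := Cfsg.Agent.H999.IFB.IF.E2' h hna hz ord_z0
  have h1 := (h5 C1 le_rfl).1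
  rw [SuzSheet.index_C1] at h1
  have h2 : A.relIndex C1 ≤ 10 := by
    by_contra hlt
    push Not at hlt
    have h3 : 11 ^ 5 ≤ A.relIndex C1 ^ 5 := Nat.pow_le_pow_left hlt 5
    norm_num at h3
    omega
  have h3 := SuzI.eq_top_of_small (X := A.subgroupOf C1) h2
  exact Subgroup.subgroupOf_eq_top.1 h3

theorem cent_conj_le [IsSimpleGroup Suz] (h : IF A Γ) {g : Suz} (hz : g * z0 * g⁻¹ ∈ A) {x : Suz}
    (hx : x * (g * z0 * g⁻¹) = (g * z0 * g⁻¹) * x) : x ∈ A := by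
  obtain ⟨A', Γ', h', hA'⟩ := IF.conjg h g
  have h1 := cent_le h' ((hA' z0).2 hz)
  have h2 : g⁻¹ * x * g ∈ C1 := by
    rw [mem_C1]
    calc g⁻¹ * x * g * z0 = g⁻¹ * (x * (g * z0 * g⁻¹)) * g := by group
      _ = g⁻¹ * ((g * z0 * g⁻¹) * x) * g := by rw [hx]
      _ = z0 * (g⁻¹ * x * g) := by group
  have h3 := (hA' _).1 (h1 h2)
  have e : g * (g⁻¹ * x * g) * g⁻¹ = x := by group
  rwa [e] at h3

/-- **`A` contains no conjugate of `z0`.** -/
theorem no_z [IsSimpleGroup Suz] (h : IF A Γ) (hz : z0 ∈ A) : False := by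
  have hC : C1 ≤ A := cent_le h hz
  have hP : ∀ c : Suz, c * z0 = z0 * c → c ∈ A := fun c hc => hC (mem_C1.2 hc)
  have ha : el [.a] ∈ A := hP _ rfl
  have hc : el [.c] ∈ A := hP _ (SuzOut.comm_of (by decide +kernel))
  have hd : el [.d] ∈ A := hP _ (SuzOut.comm_of (by decide +kernel))
  have he : el [.e] ∈ A := hP _ (SuzOut.comm_of (by decide +kernel))
  have hf : el [.f] ∈ A := hP _ (SuzOut.comm_of (by decide +kernel))
  have hg : el [.g] ∈ A := hP _ (SuzOut.comm_of (by decide +kernel))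
  have hh : el h1 ∈ A := hP _ (mem_C1.1 h1_mem)
  have hcc : SuzOut.n0 * z0 * SuzOut.n0⁻¹ = el [.c] := SuzOut.n0_conj
  -- `u1 = h1 d c d⁻¹ h1⁻¹`
  set p : Suz := el h1 * (el [.d] * SuzOut.n0) with hp
  set u1 : Suz := p * z0 * p⁻¹ with hu1
  have hu1e : u1 = el h1 * el [.d] * el [.c] * (el [.d])⁻¹ * (el h1)⁻¹ := by
    rw [hu1, hp, ← hcc]; group
  have hdz : el [.d] * z0 = z0 * el [.d] := SuzOut.comm_of (by decide +kernel)
  have hcz : el [.c] * z0 = z0 * el [.c] := SuzOut.comm_of (by decide +kernel)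
  have hhz : el h1 * z0 = z0 * el h1 := mem_C1.1 h1_mem
  have hu1C : u1 ∈ C1 := by
    rw [hu1e]
    have h1' : el h1 ∈ C1 := mem_C1.2 hhz
    have h2' : el [.d] ∈ C1 := mem_C1.2 hdz
    have h3' : el [.c] ∈ C1 := mem_C1.2 hcz
    exact C1.mul_mem (C1.mul_mem (C1.mul_mem (C1.mul_mem h1' h2') h3') (C1.inv_mem h2')) (C1.inv_mem h1')
  have hu1z : u1 * z0 = z0 * u1 := mem_C1.1 hu1C
  -- `u2 = n0 u1 n0⁻¹` commutes with `c`
  set u2 : Suz := (SuzOut.n0 * p) * z0 * (SuzOut.n0 * p)⁻¹ with hu2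
  have hu2e : u2 = SuzOut.n0 * u1 * SuzOut.n0⁻¹ := by rw [hu2, hu1]; group
  have hu2A : u2 ∈ A := by
    apply cent_conj_le h (g := SuzOut.n0) (by rw [hcc]; exact hc)
    rw [hu2e]
    calc SuzOut.n0 * u1 * SuzOut.n0⁻¹ * (SuzOut.n0 * z0 * SuzOut.n0⁻¹)
        = SuzOut.n0 * (u1 * z0) * SuzOut.n0⁻¹ := by group
      _ = SuzOut.n0 * (z0 * u1) * SuzOut.n0⁻¹ := by rw [hu1z]
      _ = _ := by group
  -- `mw z0 mw⁻¹`
  have hmw : el SuzOut.mw = (el h1 * (el [.c] * el [.d])) * (SuzOut.n0 * p) := by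
    rw [SuzOut.mw, el_append, el_append, el_append, el_append, el_append, el_append]
    show _ = (el h1 * (el [.c] * el [.d])) * (el SuzOut.nw * (el h1 * (el [.d] * el SuzOut.nw)))
    group
  have hsA : el SuzOut.mw * z0 * (el SuzOut.mw)⁻¹ ∈ A := by
    have e : el SuzOut.mw * z0 * (el SuzOut.mw)⁻¹ = (el h1 * (el [.c] * el [.d])) * u2 * (el h1 * (el [.c] * el [.d]))⁻¹ := by
      rw [hmw, hu2]; group
    rw [e]
    have h7 : el h1 * (el [.c] * el [.d]) ∈ A := A.mul_mem hh (A.mul_mem hc hd)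
    exact A.mul_mem (A.mul_mem h7 hu2A) (A.inv_mem h7)
  have hb : el [.b] ∈ A := cent_conj_le h hsA SuzOut.mw_comm.symm
  apply h.ne_top
  rw [eq_top_iff, ← closure_S7, Subgroup.closure_le]
  rintro g ⟨w, hw, rfl⟩
  simp only [List.mem_cons, List.not_mem_nil, or_false] at hw
  rcases hw with rfl | rfl | rfl | rfl | rfl | rfl | rfl
  · exact ha
  · exact hb
  · exact hc
  · exact hd
  · exact he
  · exact hf
  · exact hg

theorem no_z' [IsSimpleGroup Suz] (h : IF A Γ) (g : Suz) : g * z0 * g⁻¹ ∉ A := by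
  intro hg
  obtain ⟨A', Γ', h', hA'⟩ := IF.conjg h g
  exact no_z h' ((hA' z0).2 hg)

/-! ### The class `2B` -/

open Cfsg.Agent.SporRec.SuzCl in
/-- fixed points of the elements of `TL` -/
noncomputable def cntK (k : ℕ) : ℕ :=
  cntP (fun i => and (Nat.ble i 1781) (Nat.beq (tev SuzTL.tsL k 0 i) i)) 11 0

open Cfsg.Agent.SporRec.SuzCl in
theorem card_FxK (k : ℕ) : (Fx (pr SuzTL.gsL k)).card = cntK k := by
  unfold cntK
  rw [cntP_eq]
  congr 1
  ext p
  unfold Fx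
  rw [Finset.mem_filter, Finset.mem_range, Finset.mem_filter, Finset.mem_Ico, Bool.and_eq_true,
    Nat.beq_eq]
  constructor
  · rintro ⟨h1, h2⟩
    refine ⟨⟨Nat.zero_le _, by norm_num; omega⟩, Nat.ble_eq_true_of_le (by omega), ?_⟩
    rw [← (tev_zero SuzTL.R_L k p h1).1]; exact h2
  · rintro ⟨-, h1, h2⟩
    have h3 := Nat.le_of_ble_eq_true h1
    refine ⟨by omega, ?_⟩
    rw [(tev_zero SuzTL.R_L k p (by omega)).1]; exact h2

open Cfsg.Agent.SporRec.SuzCl in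
theorem chkTL : allP (fun k => or (Nat.beq k 0) (or (not (eqB (fun p => tev SuzTL.tsL k 0 (tev SuzTL.tsL k 0 p)) (fun p => p)))
    (not (Nat.beq (cntK k) 42)))) 6 0 = true := by
  decide +kernel

open Cfsg.Agent.SporRec.SuzCl in
/-- **The involutions of `TL` are conjugate to `z0`.** -/
theorem TL_inv {t : Suz} (ht : t ∈ SuzTL.TL) (h2 : t * t = 1) (h1 : t ≠ 1) : ∃ g, g * z0 * g⁻¹ = t := by
  rcases two t h2 h1 with ⟨g, hg⟩ | ⟨g, hg⟩
  · exact ⟨g, by rw [SuzY.z0_eq]; exact hg⟩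
  · exfalso
    obtain ⟨k, hk, rfl⟩ := exists_pr SuzTL.gsL SuzTL.pc_L t ht
    have hk' : k < 64 := hk
    have h3 := allP_spec _ 6 0 chkTL k (Nat.zero_le _) (by omega)
    simp only [Bool.or_eq_true] at h3
    rcases h3 with h3 | h3 | h3
    · apply h1
      rw [Nat.eq_of_beq_eq_true h3]
      exact pr_zero _
    · have h4 : eqB (fun p => tev SuzTL.tsL k 0 (tev SuzTL.tsL k 0 p)) (fun p => p) = true :=
        eqB_of_eq (x := pr SuzTL.gsL k * pr SuzTL.gsL k) (y := 1)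
          (fun p hp => by
            have h5 := tev_zero SuzTL.R_L k p hp
            rw [map_mul, Equiv.Perm.mul_apply, h5.1, (tev_zero SuzTL.R_L k _ h5.2).1])
          (fun p _ => by rw [map_one]; rfl) h2
      rw [h4] at h3
      exact absurd h3 (by decide)
    · have h4 : cntK k = 42 := by
        rw [← card_FxK, ← hg, card_Fx_conj, card_Fx R_e, cntF_e]
      rw [h4] at h3
      exact absurd h3 (by decide)

theorem index_CE : SuzTwoB.CE.index = 2779920 := by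
  have h := SuzTwoB.CE.card_mul_index
  rw [SuzTwoB.card_CE, card_Suz] at h
  omega

theorem no_e [IsSimpleGroup Suz] (h : IF A Γ) (he : SuzLFour.e0 ∈ A) : False := by
  have := SuzI.finSuz
  obtain ⟨-, -, -, -, h5⟩ := Cfsg.Agent.H999.IFB.IF.E2' h hna he ord_e0
  have hTL : SuzTL.TL ≤ SuzTwoB.CE := SuzTL.TL_le.trans Cfsg.Agent.CTwoTab.Suz.L_le_CE
  have h1 := (h5 SuzTL.TL hTL).1
  have h1' : A.relIndex SuzTL.TL ^ 5 < SuzTwoB.CE.index := h1
  rw [index_CE] at h1'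
  have hne : A ⊓ SuzTL.TL ≠ ⊥ := by
    intro hbot
    rw [relIndex_eq hbot, SuzTL.card_TL] at h1'
    norm_num at h1'
  obtain ⟨x, hxA, hxT, hx⟩ := exists_two (IsPGroup.of_card (n := 6) (by rw [SuzTL.card_TL]; norm_num)) hne
  have hx2 : x * x = 1 := by rw [← pow_two, ← hx, pow_orderOf_eq_one]
  have hx1 : x ≠ 1 := by
    rintro rfl
    rw [orderOf_one] at hx
    omega
  obtain ⟨g, hg⟩ := TL_inv hxT hx2 hx1
  exact no_z' h g (by rw [hg]; exact hxA)

theorem no_e' [IsSimpleGroup Suz] (h : IF A Γ) (g : Suz) : g * SuzLFour.e0 * g⁻¹ ∉ A := by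
  intro hg
  obtain ⟨A', Γ', h', hA'⟩ := IF.conjg h g
  exact no_e h' ((hA' _).2 hg)

/-! ### `A` of odd order -/

theorem ord_odd [IsSimpleGroup Suz] (h : IF A Γ) : ∀ t ∈ A, orderOf t ≠ 2 := by
  intro t ht h2
  have ht2 : t * t = 1 := by rw [← pow_two, ← h2, pow_orderOf_eq_one]
  have ht1 : t ≠ 1 := by
    rintro rfl
    rw [orderOf_one] at h2
    omega
  rcases Cfsg.Agent.CTwoTab.Suz.classes ht2 ht1 with hc | hc
  · obtain ⟨g, hg⟩ := isConj_iff.1 hc
    exact no_z' h g (by rw [hg]; exact ht)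
  · obtain ⟨g, hg⟩ := isConj_iff.1 hc
    exact no_e' h g (by rw [hg]; exact ht)

theorem fin_kill (h : IF A Γ) (hodd : ∀ t ∈ A, orderOf t ≠ 2) {σ β : MulAut Suz} (hσ : σ ∈ Γ) (h2 : orderOf σ = 2)
    {g : Suz} (hσe : σ = MulAut.conj g * β * (MulAut.conj g)⁻¹) {F : Subgroup Suz} (hF : ∀ x ∈ F, β x = x)
    (hc : 2 ^ 7 ∣ Nat.card F) : False := by
  have := SuzI.finSuz
  have hp : Fact (Nat.Prime 2) := ⟨Nat.prime_two⟩
  obtain ⟨K, hK⟩ := Sylow.exists_subgroup_card_pow_prime 2 (G := F) (n := 7) hc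
  set B : Subgroup Suz := (K.map F.subtype).map (MulAut.conj g).toMonoidHom with hBdef
  have hBc : Nat.card B = 2 ^ 7 := by
    rw [hBdef, ← Nat.card_congr ((K.map F.subtype).equivMapOfInjective _ (MulAut.conj g).injective).toEquiv,
      ← Nat.card_congr (K.equivMapOfInjective _ F.subtype_injective).toEquiv, hK]
  refine odd_kill h hodd hσ h2 (B := B) (IsPGroup.of_card hBc) ?_ ?_
  · rintro _ ⟨_, ⟨y, hy, rfl⟩, rfl⟩
    have h3 : β (y : Suz) = y := hF _ y.2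
    show σ (g * (y : Suz) * g⁻¹) = g * (y : Suz) * g⁻¹
    rw [hσe, MulAut.mul_apply, MulAut.mul_apply, MulAut.conj_inv_apply]
    have e : g⁻¹ * (g * (y : Suz) * g⁻¹) * g = y := by group
    rw [e, h3, MulAut.conj_apply]
  · rw [hBc, card_Suz]
    norm_num

/-- the fixed points of an automorphism -/
def Fix (β : MulAut Suz) : Subgroup Suz where
  carrier := {x | β x = x}
  one_mem' := map_one β
  mul_mem' := fun {a b} ha hb => by
    show β (a * b) = a * b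
    rw [map_mul, show β a = a from ha, show β b = b from hb]
  inv_mem' := fun {a} ha => by
    show β a⁻¹ = a⁻¹
    rw [map_inv, show β a = a from ha]

theorem kill [IsSimpleGroup Suz] (h : IF A Γ) : False := by
  have := SuzI.finSuz
  have hodd := ord_odd h
  obtain ⟨σ, hσ, h2, -⟩ := h.ex
  have hs2 : σ * σ = 1 := by rw [← pow_two, ← h2, pow_orderOf_eq_one]
  have hout : ∀ s, σ ≠ MulAut.conj s := by
    rintro s rfl
    have h3 := (h.conj s).1 hσ
    rw [Cfsg.Agent.H999.IFB.orderOf_conj hna] at h2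
    exact hodd s h3 h2
  rcases SuzInvol.outer hs2 hout with ⟨g, hg⟩ | ⟨g, hg⟩
  · refine fin_kill h hodd hσ h2 hg (F := stabL φ [1575, 0]) (fun x hx => SuzFix.rho_J hx) ?_
    rw [SuzFix.card_J]
    norm_num
  · refine fin_kill h hodd hσ h2 hg (F := Fix (SuzRho.rho * MulAut.conj (PresentedGroup.of Suz.Gen.e))) (fun x hx => hx) ?_
    have h5 : (SuzRho.rho * MulAut.conj (PresentedGroup.of Suz.Gen.e)) = SuzFix.tau := by
      have : SuzLFour.e0 = (PresentedGroup.of Suz.Gen.e : Suz) := by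
        show ([Suz.Gen.e].map fun x => (PresentedGroup.of x : Suz)).prod = _
        rw [List.map_cons, List.map_nil, List.prod_cons, List.prod_nil, mul_one]
      rw [SuzFix.tau, this]
    rw [SuzFix.card_tau (F := Fix (SuzRho.rho * MulAut.conj (PresentedGroup.of Suz.Gen.e))) (fun g => by rw [h5]; rfl)]
    norm_num

/-- **The row `Suz` of S5719.** -/
theorem suz : Row fun T => Spor.IsoSuz T := by
  refine Row.of_kill ?_
  rintro T _ _ _ - ⟨e⟩
  have hs : IsSimpleGroup Suz := (MulEquiv.isSimpleGroup_congr e).1 inferInstance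
  exact Kill.congr e.symm fun A Γ h => kill h

end Cfsg.Agent.H768.IF5.SuzR5
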