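import Cfsg.Agent.H768.IF.Jordan
import Cfsg.Agent.KFacts.SuzSheetM

/-!
# `Suz`: the centraliser of a 2-central involution has no proper subgroup of index at most 10 (helper768)
-/

set_option autoImplicit false
set_option maxRecDepth 100000

namespace Cfsg.Agent.H768.IF5.SuzI

open Subgroup Cfsg.Spor Cfsg.Agent.SuzThree.CentA Cfsg.Agent.SuzThree.QZero Cfsg.Agent.KFacts

theorem finSuz : Finite Suz := SuzSheetM.finite_suz

theorem Q_le : Q0 ≤ C1 := SuzThree.QZero.Q0_le

theorem card_C1' : Nat.card C1 = 3317760 := SuzCent.card_C1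

theorem card_Q : Nat.card Q0 = 128 := by rw [SuzR.card_R]; norm_num

theorem isP_Q : IsPGroup 2 Q0 := IsPGroup.of_card (n := 7) SuzR.card_R

/-- a proper normal subgroup of `C1` is contained in `Q0` -/
theorem normal_le (N : Subgroup C1) [hNn : N.Normal] (hN : N ≠ ⊤) : N.map C1.subtype ≤ Q0 := by
  have := finSuz
  set N' : Subgroup Suz := N.map C1.subtype with hN'
  have hN'C : N' ≤ C1 := Subgroup.map_subtype_le _
  have hinvN : ∀ p ∈ C1, ∀ n ∈ N', p * n * p⁻¹ ∈ N' := by
    rintro p hp _ ⟨n, hn, rfl⟩
    exact ⟨⟨p, hp⟩ * n * ⟨p, hp⟩⁻¹, hNn.conj_mem n hn ⟨p, hp⟩, rfl⟩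
  have hinv : ∀ p ∈ C1, ∀ n ∈ N' ⊔ Q0, p * n * p⁻¹ ∈ N' ⊔ Q0 := by
    intro p hp n hn
    have h1 : N' ⊔ Q0 ≤ (N' ⊔ Q0).comap (MulAut.conj p).toMonoidHom := by
      refine sup_le ?_ ?_
      · intro x hx
        exact mem_sup_left (hinvN p hp x hx)
      · intro x hx
        exact mem_sup_right (SuzR.normal_R hp hx)
    exact h1 hn
  rcases SuzSheetM.normal_cases (sup_le hN'C Q_le) le_sup_right hinv with h | h
  · exact le_sup_left.trans h
  · exfalso
    apply hN
    have hsup : N ⊔ Q0.subgroupOf C1 = ⊤ := by
      apply Subgroup.map_injective C1.subtype_injective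
      rw [Subgroup.map_sup, Subgroup.map_subgroupOf_eq_of_le Q_le, ← MonoidHom.range_eq_map, Subgroup.range_subtype]
      exact h
    have h1 : (Q0.subgroupOf C1).map (QuotientGroup.mk' N) = ⊤ := by
      have h2 : (N ⊔ Q0.subgroupOf C1).map (QuotientGroup.mk' N) = ⊤ := by
        rw [hsup]
        exact Subgroup.map_top_of_surjective _ (QuotientGroup.mk'_surjective N)
      rw [Subgroup.map_sup, QuotientGroup.map_mk'_self, bot_sup_eq] at h2
      exact h2
    have h2 : IsPGroup 2 (Q0.subgroupOf C1) := isP_Q.of_equiv (Subgroup.subgroupOfEquivOfLe Q_le).symm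
    have h3 := h2.map (QuotientGroup.mk' N)
    rw [h1] at h3
    have h4 : IsPGroup 2 (C1 ⧸ N) := h3.of_equiv Subgroup.topEquiv
    have hp : Fact (Nat.Prime 2) := ⟨Nat.prime_two⟩
    have h5 : Group.IsNilpotent (C1 ⧸ N) := h4.isNilpotent
    have h7 : commutator (C1 ⧸ N) = ⊤ := by
      have h8 : (commutator C1).map (QuotientGroup.mk' N) = commutator (C1 ⧸ N) := by
        rw [_root_.commutator_def, _root_.commutator_def, Subgroup.map_commutator,
          Subgroup.map_top_of_surjective _ (QuotientGroup.mk'_surjective N)]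
      rw [← h8, SuzR.perfect]
      exact Subgroup.map_top_of_surjective _ (QuotientGroup.mk'_surjective N)
    by_contra hNt
    have hnt : Nontrivial (C1 ⧸ N) := QuotientGroup.nontrivial_iff.2 hNt
    have h9 := Group.IsSolvable.commutator_lt_top_of_nontrivial (C1 ⧸ N)
    rw [h7] at h9
    exact lt_irrefl _ h9

/-- **No proper subgroup of index at most 10.** -/
theorem eq_top_of_small {X : Subgroup C1} (hX : X.index ≤ 10) : X = ⊤ := by
  have hfin := finSuz
  by_contra hne
  obtain ⟨M, hM, hXM⟩ := (eq_top_or_exists_le_coatom X).resolve_left hne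
  have hX0 : 0 < X.index := Nat.pos_of_ne_zero Subgroup.index_ne_zero_of_finite
  have hMi : M.index ≤ 10 := (Nat.le_of_dvd hX0 (Subgroup.index_dvd_of_le hXM)).trans hX
  set f := MulAction.toPermHom C1 (C1 ⧸ M) with hf
  have hker : f.ker = M.normalCore := (Subgroup.normalCore_eq_ker M).symm
  have hcardR : Nat.card f.range * Nat.card f.ker = Nat.card C1 := by
    rw [← Subgroup.index_ker, mul_comm]
    exact f.ker.card_mul_index
  have hRdvd : Nat.card f.range ∣ M.index.factorial := by
    have h1 := Subgroup.card_subgroup_dvd_card f.range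
    rwa [Nat.card_perm] at h1
  have hkt : f.ker ≠ ⊤ := by
    intro h
    apply hM.1
    rw [eq_top_iff, ← h, hker]
    exact Subgroup.normalCore_le M
  have h1 := normal_le f.ker hkt
  have hcm : Nat.card (f.ker.map C1.subtype) = Nat.card f.ker :=
    (Nat.card_congr (f.ker.equivMapOfInjective _ C1.subtype_injective).toEquiv).symm
  have hinvN : ∀ p ∈ C1, ∀ n ∈ f.ker.map C1.subtype, p * n * p⁻¹ ∈ f.ker.map C1.subtype := by
    rintro p hp _ ⟨n, hn, rfl⟩
    exact ⟨⟨p, hp⟩ * n * ⟨p, hp⟩⁻¹, (inferInstance : f.ker.Normal).conj_mem n hn ⟨p, hp⟩, rfl⟩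
  rw [card_C1'] at hcardR
  have h10 : Nat.card f.range ∣ Nat.factorial 10 := hRdvd.trans (Nat.factorial_dvd_factorial hMi)
  rcases SuzR.irr h1 hinvN with h2 | h2
  · -- the kernel has order at most 2
    have h3 : Nat.card (f.ker.map C1.subtype) ≤ 2 := by
      classical
      have h4 : ((f.ker.map C1.subtype : Subgroup Suz) : Set Suz) ⊆ ({1, z0} : Set Suz) := by
        intro y hy
        rcases h2 y hy with h | h
        · left; exact h
        · right; exact h
      have h5 := Set.ncard_le_ncard h4 (Set.toFinite _)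
      have h6 : ({1, z0} : Set Suz).ncard ≤ 2 := (Set.ncard_insert_le _ _).trans (by rw [Set.ncard_singleton])
      have h7 : Nat.card (f.ker.map C1.subtype) = ((f.ker.map C1.subtype : Subgroup Suz) : Set Suz).ncard := rfl
      omega
    rw [hcm] at h3
    have h4 : 0 < Nat.card f.ker := Nat.card_pos
    generalize Nat.card f.ker = k at hcardR h3 h4
    generalize Nat.card f.range = r at hcardR h10
    have h11 : r = 3317760 ∨ r = 1658880 := by
      rcases (show k = 1 ∨ k = 2 by omega) with rfl | rfl
      · left; omega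
      · right; omega
    rcases h11 with rfl | rfl
    · exact absurd h10 (by decide +kernel)
    · exact absurd h10 (by decide +kernel)
  · have h3 : Nat.card f.ker = 128 := by rw [← hcm, h2, card_Q]
    rw [h3] at hcardR
    have h4 : Nat.card f.range = 25920 := by omega
    rw [h4] at hRdvd
    have h5 : 9 ≤ M.index := by
      by_contra hlt
      push Not at hlt
      generalize M.index = k at hRdvd hlt
      interval_cases k <;> exact absurd hRdvd (by decide +kernel)
    have h6 : M.index.factorial ∣ 2 * 25920 := by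
      rw [← h4]
      apply dvd_of_full hM (by omega)
      rw [← hf, h4]
      have h25 : (25920 : ℕ).factorization 3 = 4 := by
        rw [show (25920 : ℕ) = 3 ^ 4 * 320 by norm_num, Nat.factorization_mul (by norm_num) (by norm_num),
          Finsupp.add_apply, Nat.Prime.factorization_pow Nat.prime_three, Finsupp.single_eq_same,
          Nat.factorization_eq_zero_of_not_dvd (by norm_num)]
      rw [h25]
      rcases (show M.index = 9 ∨ M.index = 10 by omega) with h | h
      · rw [h, show (Nat.factorial 9) = 3 ^ 4 * 4480 by decide, Nat.factorization_mul (by norm_num) (by norm_num),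
          Finsupp.add_apply, Nat.Prime.factorization_pow Nat.prime_three, Finsupp.single_eq_same,
          Nat.factorization_eq_zero_of_not_dvd (by norm_num)]
      · rw [h, show (Nat.factorial 10) = 3 ^ 4 * 44800 by decide, Nat.factorization_mul (by norm_num) (by norm_num),
          Finsupp.add_apply, Nat.Prime.factorization_pow Nat.prime_three, Finsupp.single_eq_same,
          Nat.factorization_eq_zero_of_not_dvd (by norm_num)]
    rcases (show M.index = 9 ∨ M.index = 10 by omega) with h | h
    · rw [h] at h6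
      exact absurd h6 (by decide +kernel)
    · rw [h] at h6
      exact absurd h6 (by decide +kernel)

end Cfsg.Agent.H768.IF5.SuzI
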